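import Cfsg.Agent.KFacts.RgdDiag
import Cfsg.Agent.KFacts.RgdSyl
import Cfsg.Agent.KFacts.SylFix

/-!
# Displacement of an automorphism of a group with a root group datum (helper891)

* `exists_conj_diag` : every automorphism is `x ↦ g (δ x) g⁻¹` with `δ` a diagonal/graph/field automorphism;
* `exists_disp` : choosing the conjugate with the longest displacement `w`: after conjugation
  `a = conj (k u) ∘ δ` with `k` over `w`, `u ∈ U`, and for all `i`: `w⁻¹ α_i < 0` or `w⁻¹ α_i = α_{σ i}`, `u ∈ V_{σ i}`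
  and `δ = conj k⁻¹` on `X α_i`; if `a ≠ 1` in a simple group then `w ≠ 1`.
-/

set_option autoImplicit false
set_option linter.unusedSectionVars false

namespace Cfsg.Agent.H891.UL.Disp

open CoxeterSystem Cfsg.Agent.ChevalleyStructure.CoxeterGeom Cfsg.Agent.Tits.Roots Cfsg.Agent.Tits.Core
  Cfsg.Agent.Tits.Exchange Cfsg.Agent.Nodes.Reps Cfsg.Agent.Nodes.BNOf Cfsg.Agent.Nodes.StabComb
  Cfsg.Agent.Nodes.Bruhat Cfsg.Agent.Nodes.OppDec Cfsg.Agent.Nodes.LeviDec Cfsg.Agent.Nodes.NormalForm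
  Cfsg.Agent.KFacts.RgdOpp Cfsg.Agent.KFacts.RgdAut Cfsg.Agent.KFacts.RgdDiag

variable {I W Y : Type*} [Fintype I] [DecidableEq I] [Group W] [Group Y] {M : CoxeterMatrix I}
  {cs : CoxeterSystem M W} {A : I → I → ℤ} {h : IsCartan M A} {p : ℕ} {T : Subgroup Y} {n : I → Y}
  {X : (I → ℤ) → Subgroup Y}

variable (R : RGD cs h p T n X)

include R

/-- **Every automorphism is inner times diagonal-graph-field.** -/
theorem exists_conj_diag [Finite W] [Finite Y] [Fact p.Prime] (hG : GG cs h T X = ⊤) (a : MulAut Y) :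
    ∃ (g : Y) (δ : MulAut Y) (σ : Equiv.Perm I), Diag T X δ σ ∧ Fix δ (RGD.Sup X (RGD.Pos cs h)) ∧
      Fix δ (RGD.B cs h T X) ∧ ∀ x, a x = g * δ x * g⁻¹ := by
  have hi : ¬ p ∣ (RGD.Sup X (RGD.Pos cs h)).index := by
    have := KFacts.RgdSyl.not_dvd_relIndex R
    rwa [hG, Subgroup.relIndex_top_right] at this
  obtain ⟨P, hP⟩ : ∃ P : Sylow p Y, (P : Subgroup Y) = RGD.Sup X (RGD.Pos cs h) :=
    ⟨R.isPGroup_Upos.toSylow hi, rfl⟩
  obtain ⟨g, hg⟩ := MulAction.exists_smul_eq Y P (a • P)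
  have h1 : Fix (MulAut.conj g⁻¹ * a) (RGD.Sup X (RGD.Pos cs h)) := by
    intro x
    rw [← hP]
    have e1 : a x ∈ ((a • P : Sylow p Y) : Subgroup Y) ↔ x ∈ (P : Subgroup Y) := KFacts.SylFix.mem_smul_iff a P x
    have e2 : MulAut.conj g (g⁻¹ * a x * g) ∈ ((MulAut.conj g • P : Sylow p Y) : Subgroup Y) ↔
        g⁻¹ * a x * g ∈ (P : Subgroup Y) := KFacts.SylFix.mem_smul_iff (MulAut.conj g) P _
    have e3 : (MulAut.conj g • P : Sylow p Y) = a • P := hg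
    rw [e3, MulAut.conj_apply] at e2
    have e4 : g * (g⁻¹ * a x * g) * g⁻¹ = a x := by group
    rw [e4] at e2
    rw [MulAut.mul_apply, MulAut.conj_apply, inv_inv, ← e1]
    exact e2.symm
  obtain ⟨u, hu, hU, hB, hUN, -, -⟩ := exists_frame R hG h1
  obtain ⟨σ, D⟩ := exists_diag R hG hU hUN
  refine ⟨g * u⁻¹, _, σ, D, hU, hB, fun x => ?_⟩
  rw [MulAut.mul_apply, MulAut.mul_apply, MulAut.conj_apply, MulAut.conj_apply]
  group

omit R in
theorem length_simple_mul_gt {w : W} {i : I} (hw : ¬ rep cs h w⁻¹ (sr i) ≤ 0) :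
    cs.length (cs.simple i * w) = cs.length w + 1 := by
  rcases cs.length_simple_mul w i with h1 | h1
  · exact h1
  · exfalso
    apply hw
    refine nonpos_of_lt cs h w⁻¹ i ?_
    rw [← cs.length_inv, mul_inv_rev, inv_inv, inv_simple, cs.length_inv]
    omega

/-- `u ∈ U` decomposes as `x r`, `x ∈ X α_j`, `r ∈ V_j`. -/
theorem exists_split (j : I) {u : Y} (hu : u ∈ RGD.Sup X (RGD.Pos cs h)) :
    ∃ x ∈ X (sr j), ∃ r ∈ RGD.Sup X (RGD.PosNe cs h j), u = x * r := by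
  rw [R.Upos_eq j] at hu
  have h1 : u ∈ ((X (sr j) ⊔ RGD.Sup X (RGD.PosNe cs h j) : Subgroup Y) : Set Y) := hu
  rw [Subgroup.coe_mul_of_left_le_normalizer_right _ _ (R.X_le_normalizer_V j), Set.mem_mul] at h1
  obtain ⟨x, hx, r, hr, e⟩ := h1
  exact ⟨x, hx, r, hr, e.symm⟩

omit R in
theorem V_le_B (j : I) : RGD.Sup X (RGD.PosNe cs h j) ≤ RGD.B cs h T X := by
  refine le_trans (RGD.Sup_mono (S' := RGD.Pos cs h) fun _ hx => ?_) RGD.U_le_B
  exact ⟨hx.1, hx.2.1⟩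

/-- a representative of `s_j` normalises `V_j` -/
theorem conj_V {j : I} {m : Y} (hm : Rp cs R.nsys (cs.simple j) m) {r : Y}
    (hr : r ∈ RGD.Sup X (RGD.PosNe cs h j)) : m⁻¹ * r * m ∈ RGD.Sup X (RGD.PosNe cs h j) := by
  refine conj_mem_Sup' R hm (fun x hx => hx.1) ?_ hr
  rintro x ⟨h1, h2, h3⟩
  rw [inv_simple]
  refine ⟨h1.act _, h1.simple_nonneg h2 j h3, fun h4 => ?_⟩
  have h5 := congrArg (rep cs h (cs.simple j)) h4
  rw [← rep_mul_apply, cs.simple_mul_simple_self, map_one, Module.End.one_apply, rep_simple_sr] at h5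
  have h6 := h2 j
  rw [h5, Pi.neg_apply, sr_self, Pi.zero_apply] at h6
  exact absurd h6 (not_le.2 neg_one_lt_zero)

/-- `X α_j ⊓ V_j = 1` -/
theorem X_inf_V [Finite W] {j : I} {x : Y} (hx : x ∈ X (sr j)) (hV : x ∈ RGD.Sup X (RGD.PosNe cs h j)) : x = 1 := by
  refine eq_one_of_conj_mem_B R hx (rp_simple cs R.nsys j) ?_
  have h1 : Rp cs R.nsys (cs.simple j) (n j)⁻¹ := by
    have := (rp_simple cs R.nsys j).inv
    rwa [inv_simple] at this
  have := conj_V R h1 hV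
  rw [inv_inv] at this
  exact V_le_B j this

section

variable [Finite W]

/-- the main step -/
theorem step {δ : MulAut Y} {σ : Equiv.Perm I} (D : Diag T X δ σ) {w : W} {k u : Y} (hk : Rp cs R.nsys w k)
    (hu : u ∈ RGD.Sup X (RGD.Pos cs h)) {i : I} (hi : ¬ rep cs h w⁻¹ (sr i) ≤ 0)
    (hmax : ∀ (v : Y) (w' : W), Cell R.nsys cs h X w' ((n i)⁻¹ * v⁻¹ * (k * u) * δ v * δ (n i)) →
      cs.length w' ≤ cs.length w) :
    rep cs h w⁻¹ (sr i) = sr (σ i) ∧ u ∈ RGD.Sup X (RGD.PosNe cs h (σ i)) ∧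
      ∀ v ∈ X (sr i), δ v = k⁻¹ * v * k := by
  obtain ⟨j, hj⟩ : ∃ j, j = σ i := ⟨_, rfl⟩
  rw [← hj]
  have hlen := length_simple_mul_gt hi
  have hm : Rp cs R.nsys (cs.simple j) (δ (n i)) := by rw [hj]; exact D.rp (R := R) i
  have hroot : IsRoot cs h (rep cs h w⁻¹ (sr i)) := (isRoot_sr cs h i).act w⁻¹
  have hpos : 0 ≤ rep cs h w⁻¹ (sr i) := hroot.pos_or_neg.resolve_right hi
  have hq : Rp cs R.nsys (cs.simple i * w) ((n i)⁻¹ * k) := by
    have := (rp_simple cs R.nsys i).inv.mul hk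
    rwa [inv_simple] at this
  -- the bracket
  have hbr : ∀ v ∈ X (sr i), k⁻¹ * v⁻¹ * k * u * δ v ∈ RGD.Sup X (RGD.Pos cs h) := by
    intro v hv
    have h1 : k⁻¹ * v⁻¹ * k ∈ X (rep cs h w⁻¹ (sr i)) := R.conj_mem' hk (isRoot_sr cs h i) (inv_mem hv)
    have h2 : δ v ∈ X (sr j) := by rw [hj]; exact (D.pos i v).2 hv
    exact mul_mem (mul_mem (RGD.le_Sup (S := RGD.Pos cs h) ⟨hroot, hpos⟩ h1) hu)
      (RGD.le_Sup (S := RGD.Pos cs h) ⟨isRoot_sr cs h j, sr_nonneg j⟩ h2)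
  -- the length drops
  have hlen2 : cs.length (cs.simple i * w * cs.simple j) + 1 = cs.length (cs.simple i * w) := by
    rcases cs.length_mul_simple (cs.simple i * w) j with h1 | h1
    · exfalso
      have h2 := hbr 1 (one_mem _)
      have h3 : Cell R.nsys cs h X (cs.simple i * w * cs.simple j)
          (((n i)⁻¹ * k) * (k⁻¹ * 1⁻¹ * k * u * δ 1) * δ (n i)) := by
        refine Cell.mul_of_length R ?_ ((cell_of_rp hq).mul_right (RGD.U_le_B h2)) (cell_of_rp hm)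
        rw [h1, cs.length_simple]
      have h4 := hmax 1 (cs.simple i * w * cs.simple j) (by
        have e : (n i)⁻¹ * 1⁻¹ * (k * u) * δ 1 * δ (n i) =
          ((n i)⁻¹ * k) * (k⁻¹ * 1⁻¹ * k * u * δ 1) * δ (n i) := by group
        rw [e]; exact h3)
      omega
    · exact h1
  have hq' : Rp cs R.nsys (cs.simple i * w * cs.simple j) ((n i)⁻¹ * k * δ (n i)) := hq.mul hm
  -- no component
  have hcomp : ∀ v ∈ X (sr i), k⁻¹ * v⁻¹ * k * u * δ v ∈ RGD.Sup X (RGD.PosNe cs h j) := by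
    intro v hv
    obtain ⟨x, hx, r, hr, e⟩ := exists_split R j (hbr v hv)
    by_cases hx1 : x = 1
    · rw [e, hx1, one_mul]; exact hr
    exfalso
    obtain ⟨m, hm'⟩ : ∃ m, m = δ (n i) := ⟨_, rfl⟩
    rw [← hm'] at hm hq'
    have h1 : m⁻¹ * x * m ∈ X (-sr j) := by
      have := R.conj_mem' hm (isRoot_sr cs h j) hx
      rwa [inv_simple, rep_simple_sr] at this
    have h2 : m⁻¹ * x * m ≠ 1 := by
      intro h3
      apply hx1
      have h4 : x = m * (m⁻¹ * x * m) * m⁻¹ := by group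
      rw [h4, h3]; group
    have h3 : Cell R.nsys cs h X (cs.simple j) (m⁻¹ * x * m) := by
      obtain ⟨a, ha, t, ht, b, hb, e'⟩ := R.rk1 j _ h1 h2
      refine ⟨a * t, mul_mem (RGD.X_le_B (isRoot_sr cs h j) (sr_nonneg j) ha) (RGD.T_le_B ht), n j,
        rp_simple cs R.nsys j, b, RGD.X_le_B (isRoot_sr cs h j) (sr_nonneg j) hb, e'⟩
    have h4 : Cell R.nsys cs h X (cs.simple i * w * cs.simple j * cs.simple j)
        (((n i)⁻¹ * k * m) * ((m⁻¹ * x * m) * (m⁻¹ * r * m))) := by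
      refine Cell.mul_of_length R ?_ (cell_of_rp hq') (h3.mul_right (V_le_B j (conj_V R hm hr)))
      rw [mul_assoc, cs.simple_mul_simple_self, mul_one, cs.length_simple, hlen2]
    have h5 := hmax v _ (by
      have e2 : (n i)⁻¹ * v⁻¹ * (k * u) * δ v * δ (n i) =
          ((n i)⁻¹ * k) * (k⁻¹ * v⁻¹ * k * u * δ v) * m := by rw [← hm']; group
      have e3 : ((n i)⁻¹ * k) * (k⁻¹ * v⁻¹ * k * u * δ v) * m =
          (((n i)⁻¹ * k * m) * ((m⁻¹ * x * m) * (m⁻¹ * r * m))) := by rw [e]; group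
      rw [e2, e3]
      exact h4)
    rw [mul_assoc (cs.simple i * w), cs.simple_mul_simple_self, mul_one] at h5
    omega
  have huV : u ∈ RGD.Sup X (RGD.PosNe cs h j) := by
    have := hcomp 1 (one_mem _)
    have e : k⁻¹ * 1⁻¹ * k * u * δ 1 = u := by rw [map_one]; group
    rwa [e] at this
  -- modulo `V`
  have hmod : ∀ v ∈ X (sr i), k⁻¹ * v⁻¹ * k * δ v ∈ RGD.Sup X (RGD.PosNe cs h j) := by
    intro v hv
    have h2 : δ v ∈ X (sr j) := by rw [hj]; exact (D.pos i v).2 hv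
    have h3 : (δ v)⁻¹ * u⁻¹ * δ v ∈ RGD.Sup X (RGD.PosNe cs h j) := by
      have := (Subgroup.mem_normalizer_iff.1 (R.X_le_normalizer_V j (inv_mem h2)) u⁻¹).1 (inv_mem huV)
      rwa [inv_inv] at this
    have h4 := mul_mem (hcomp v hv) h3
    have e : k⁻¹ * v⁻¹ * k * u * δ v * ((δ v)⁻¹ * u⁻¹ * δ v) = k⁻¹ * v⁻¹ * k * δ v := by group
    rwa [e] at h4
  have hrs : rep cs h w⁻¹ (sr i) = sr j := by
    by_contra hne
    obtain ⟨v, hv, hv1⟩ := exists_ne_one R i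
    apply hv1
    have h1 : k⁻¹ * v⁻¹ * k ∈ RGD.Sup X (RGD.PosNe cs h j) :=
      RGD.le_Sup (S := RGD.PosNe cs h j) ⟨hroot, hpos, hne⟩ (R.conj_mem' hk (isRoot_sr cs h i) (inv_mem hv))
    have h2 : δ v ∈ RGD.Sup X (RGD.PosNe cs h j) := by
      have := mul_mem (inv_mem h1) (hmod v hv)
      rwa [inv_mul_cancel_left] at this
    have h3 : δ v = 1 := X_inf_V R (j := j) (by rw [hj]; exact (D.pos i v).2 hv) h2
    exact δ.injective (by rw [h3, map_one])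
  refine ⟨hrs, huV, fun v hv => ?_⟩
  have h1 : k⁻¹ * v⁻¹ * k ∈ X (sr j) := by
    rw [← hrs]; exact R.conj_mem' hk (isRoot_sr cs h i) (inv_mem hv)
  have h2 : δ v ∈ X (sr j) := by rw [hj]; exact (D.pos i v).2 hv
  have h3 := X_inf_V R (mul_mem h1 h2) (hmod v hv)
  have e : δ v = (k⁻¹ * v⁻¹ * k)⁻¹ * (k⁻¹ * v⁻¹ * k * δ v) := by group
  rw [e, h3]; group

/-- **Displacement.** -/
theorem exists_disp (hG : GG cs h T X = ⊤) {δ : MulAut Y} {σ : Equiv.Perm I} (D : Diag T X δ σ)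
    (hB : Fix δ (RGD.B cs h T X)) (hcore : ∀ x : Y, (∀ z, z⁻¹ * x * z ∈ RGD.B cs h T X) → x = 1)
    {a : MulAut Y} (ha : a ≠ 1) {g : Y} (hag : ∀ x, a x = g * δ x * g⁻¹) :
    ∃ (y : Y) (w : W) (k u : Y), w ≠ 1 ∧ Rp cs R.nsys w k ∧ u ∈ RGD.Sup X (RGD.Pos cs h) ∧
      (∀ x, y⁻¹ * a (y * x * y⁻¹) * y = k * (u * δ x * u⁻¹) * k⁻¹) ∧
      ∀ i, rep cs h w⁻¹ (sr i) ≤ 0 ∨ (rep cs h w⁻¹ (sr i) = sr (σ i) ∧
        u ∈ RGD.Sup X (RGD.PosNe cs h (σ i)) ∧ ∀ v ∈ X (sr i), δ v = k⁻¹ * v * k) := by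
  -- the longest displacement
  obtain ⟨⟨w, y⟩, hwy, hmax⟩ : ∃ q : W × Y, Cell R.nsys cs h X q.1 (q.2⁻¹ * g * δ q.2) ∧
      ∀ y' w', Cell R.nsys cs h X w' (y'⁻¹ * g * δ y') → cs.length w' ≤ cs.length q.1 := by
    obtain ⟨w, ⟨y, hy⟩, hw⟩ : ∃ w ∈ {w : W | ∃ y, Cell R.nsys cs h X w (y⁻¹ * g * δ y)},
        ∀ w' ∈ {w : W | ∃ y, Cell R.nsys cs h X w (y⁻¹ * g * δ y)}, cs.length w' ≤ cs.length w := by
      apply Set.exists_max_image _ _ (Set.toFinite _)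
      obtain ⟨w, hw⟩ := (mem_GG R).1 (show (1 : Y)⁻¹ * g * δ 1 ∈ GG cs h T X by rw [hG]; exact Subgroup.mem_top _)
      exact ⟨w, 1, hw⟩
    exact ⟨(w, y), hy, fun y' w' h' => hw w' ⟨y', h'⟩⟩
  dsimp only at hwy hmax
  obtain ⟨b₁, hb₁, k₀, hk₀, b₂, hb₂, e⟩ := hwy
  have h1 : b₂ * δ b₁ ∈ RGD.B cs h T X := mul_mem hb₂ ((hB b₁).2 hb₁)
  obtain ⟨t, ht, u, hu, e'⟩ := R.mem_B.1 h1
  obtain ⟨k, hk⟩ : ∃ k, k = k₀ * t := ⟨_, rfl⟩
  have hkR : Rp cs R.nsys w k := by rw [hk]; exact hk₀.mul_mem_right ht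
  obtain ⟨y₁, hy₁⟩ : ∃ y₁, y₁ = y * b₁ := ⟨_, rfl⟩
  have e1 : y₁⁻¹ * g * δ y₁ = k * u := by
    have e2 : y₁⁻¹ * g * δ y₁ = b₁⁻¹ * (y⁻¹ * g * δ y) * δ b₁ := by rw [hy₁, map_mul]; group
    rw [e2, e, hk, mul_assoc k₀ t u, ← e']; group
  refine ⟨y₁, w, k, u, ?_, hkR, hu, ?_, ?_⟩
  · rintro rfl
    apply ha
    -- all displacements are trivial
    have h2 : ∀ z, z⁻¹ * g * δ z ∈ RGD.B cs h T X := by
      intro z
      obtain ⟨w', hw'⟩ := (mem_GG R).1 (show z⁻¹ * g * δ z ∈ GG cs h T X by rw [hG]; exact Subgroup.mem_top _)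
      have h3 := hmax z w' hw'
      rw [cs.length_one, Nat.le_zero, cs.length_eq_zero_iff] at h3
      subst h3
      exact hw'.mem_of_one
    ext x
    rw [MulAut.one_apply]
    have h3 : x⁻¹ * a x = 1 := by
      apply hcore
      intro z
      have h4 := mul_mem (h2 (x * z)) (inv_mem (h2 z))
      have e2 : (x * z)⁻¹ * g * δ (x * z) * (z⁻¹ * g * δ z)⁻¹ = z⁻¹ * (x⁻¹ * a x) * z := by
        rw [hag, map_mul]; group
      rwa [e2] at h4
    rw [inv_mul_eq_one] at h3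
    exact h3.symm
  · intro x
    have e2 : y₁⁻¹ * a (y₁ * x * y₁⁻¹) * y₁ = (y₁⁻¹ * g * δ y₁) * δ x * (y₁⁻¹ * g * δ y₁)⁻¹ := by
      rw [hag, map_mul, map_mul, map_inv]; group
    rw [e2, e1]; group
  · intro i
    by_cases hi : rep cs h w⁻¹ (sr i) ≤ 0
    · exact Or.inl hi
    · right
      refine step R D hkR hu hi fun v w' hw' => hmax (y₁ * v * n i) w' ?_
      have e2 : (y₁ * v * n i)⁻¹ * g * δ (y₁ * v * n i) =
          (n i)⁻¹ * v⁻¹ * (y₁⁻¹ * g * δ y₁) * δ v * δ (n i) := by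
        rw [map_mul, map_mul]; group
      rw [e2, e1]
      exact hw'

/-- the core of `B` in a simple group is trivial -/
theorem core_of_simple [IsSimpleGroup Y] [Nonempty I] (x : Y) (hx : ∀ z, z⁻¹ * x * z ∈ RGD.B cs h T X) : x = 1 := by
  let N : Subgroup Y := (RGD.B cs h T X).normalCore
  have h1 : x ∈ N := by
    intro z
    have := hx z⁻¹
    rwa [inv_inv] at this
  rcases (inferInstance : N.Normal).eq_bot_or_eq_top with h2 | h2
  · rw [h2, Subgroup.mem_bot] at h1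
    exact h1
  · exfalso
    obtain ⟨i⟩ := (inferInstance : Nonempty I)
    apply R.not_neg_le_B i
    have h3 : N ≤ RGD.B cs h T X := Subgroup.normalCore_le _
    rw [h2] at h3
    exact le_trans le_top h3

/-- **Displacement**, for automorphisms of simple groups. -/
theorem exists_disp' [Finite Y] [IsSimpleGroup Y] [Nonempty I] [Fact p.Prime] (hG : GG cs h T X = ⊤)
    {a : MulAut Y} (ha : a ≠ 1) :
    ∃ (δ : MulAut Y) (σ : Equiv.Perm I) (y : Y) (w : W) (k u : Y), Diag T X δ σ ∧ w ≠ 1 ∧ Rp cs R.nsys w k ∧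
      u ∈ RGD.Sup X (RGD.Pos cs h) ∧
      (∀ x, y⁻¹ * a (y * x * y⁻¹) * y = k * (u * δ x * u⁻¹) * k⁻¹) ∧
      ∀ i, rep cs h w⁻¹ (sr i) ≤ 0 ∨ (rep cs h w⁻¹ (sr i) = sr (σ i) ∧
        u ∈ RGD.Sup X (RGD.PosNe cs h (σ i)) ∧ ∀ v ∈ X (sr i), δ v = k⁻¹ * v * k) := by
  obtain ⟨g, δ, σ, D, -, hB, hag⟩ := exists_conj_diag R hG a
  obtain ⟨y, w, k, u, h1, h2, h3, h4, h5⟩ := exists_disp R hG D hB (core_of_simple R) ha hag
  exact ⟨δ, σ, y, w, k, u, D, h1, h2, h3, h4, h5⟩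

end

end Cfsg.Agent.H891.UL.Disp
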