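import Cfsg.Agent.H862.Spr.ULTwo

/-!
# The pair lemma (helper891)

* `body_of_pair` : `u ∈ ⟨x⟩`, `⟨x, v⟩ = L`, `y v y⁻¹ ∈ ⟨a (y u y⁻¹)⟩` imply `Body a`;
* `dvd_of_orbit` : a group acting with an element whose power moves a point in a cycle of prime length `r` has order
  divisible by `r`.
-/

set_option autoImplicit false

namespace Cfsg.Agent.H891.UL

open Cfsg.Agent.H862.Spr (Body)

variable {L : Type*} [Group L]

/-- **The pair lemma.** -/
theorem body_of_pair {a : MulAut L} {x u v y : L} (hux : u ∈ Subgroup.zpowers x)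
    (hgen : ∀ K : Subgroup L, x ∈ K → v ∈ K → K = ⊤)
    (hv : y * v * y⁻¹ ∈ Subgroup.zpowers (a (y * u * y⁻¹))) : Body a := by
  refine ⟨y * x * y⁻¹, fun K hx ha => ?_⟩
  have h1 : y * u * y⁻¹ ∈ K := by
    obtain ⟨m, hm⟩ := hux
    have h2 : (y * x * y⁻¹) ^ m = y * u * y⁻¹ := by
      rw [conj_zpow]
      simp only at hm
      rw [hm]
    rw [← h2]
    exact K.zpow_mem hx m
  have h2 : y * v * y⁻¹ ∈ K := (Subgroup.zpowers_le.2 (ha _ h1)) hv
  have h3 := hgen (K.comap (MulAut.conj y).toMonoidHom) hx h2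
  rw [eq_top_iff]
  intro g _
  have h4 : y⁻¹ * g * y ∈ K.comap (MulAut.conj y).toMonoidHom := by rw [h3]; trivial
  have h5 : y * (y⁻¹ * g * y) * y⁻¹ ∈ K := h4
  have h6 : y * (y⁻¹ * g * y) * y⁻¹ = g := by group
  rwa [h6] at h5

/-- an element with a power of order divisible by `r` from one orbit -/
theorem dvd_card_of_orbit {V : Type*} {K : Subgroup L} [Finite L] [MulAction L V] {g : L} (hg : g ∈ K) {r k : ℕ}
    (hr : r.Prime) {ξ : V} (h1 : g ^ (k * r) • ξ = ξ) (h2 : g ^ k • ξ ≠ ξ) : r ∣ Nat.card K := by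
  have h3 : MulAction.period (g ^ k) ξ ∣ r := by
    rw [← MulAction.pow_smul_eq_iff_period_dvd, ← pow_mul]
    exact h1
  have h4 : MulAction.period (g ^ k) ξ = r := by
    rcases (Nat.dvd_prime hr).1 h3 with h5 | h5
    · exfalso
      apply h2
      rw [MulAction.period_eq_one_iff] at h5
      exact h5
    · exact h5
  have h5 : r ∣ orderOf (g ^ k) := by
    rw [← h4]
    exact MulAction.period_dvd_orderOf _ _
  have h6 : orderOf (g ^ k) ∣ Nat.card K := by
    have h7 : orderOf (⟨g ^ k, K.pow_mem hg k⟩ : K) = orderOf (g ^ k) := by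
      rw [← Subgroup.orderOf_coe]
    rw [← h7]
    exact orderOf_dvd_natCard _
  exact h5.trans h6

end Cfsg.Agent.H891.UL
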